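import Cfsg.Agent.H316.HT.Defs
import Cfsg.Agent.H678.Codeg
import Cfsg.Agent.H545.PQ.RowTool
import Cfsg.Prelude.Def_KGroupFacts
import Mathlib

/-!
# S4933: from a normal subgroup of `p'`-index over the socle to the row

* `goodOn_of_ext`: `N ≤ K` normal in `A`, `p ∤ |K : N|`, `χ ∈ B₀(A)` restricting to an irreducible
  character `ψ` of `K` with `1 ≤ v_p(ψ(1)) ≤ a`: then `GoodOn p a M N`;
* `exists_K`: if `Out(S)` has a homomorphism to a cyclic group with kernel of order prime to `p`, then
  every almost simple group over `S` has a normal subgroup `K` over the socle with `p ∤ |K : N|` and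
  `A / K` a cyclic `p`-group;
* `row_of`: Lemma D and the structure of `Out(S)` give `Row 2 S`.
-/

set_option autoImplicit false

open Cfsg Subgroup

namespace Cfsg.Agent.H112.HT

open Cfsg.Agent.H316.HT

universe u v w

theorem vd_eq_of_res {A : Type u} [Group A] {K : Subgroup A} {p : ℕ} {ψ : K → ℂ} {χ : A → ℂ}
    (hres : ∀ t : K, χ t = ψ t) : vd p χ = vd p ψ := by
  unfold vd charDegree
  have h1 := hres 1
  rw [Subgroup.coe_one] at h1
  rw [h1]

/-- From an irreducible restriction to a normal subgroup of `p'`-index over the socle. -/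
theorem goodOn_of_ext {p : ℕ} [Fact p.Prime] {A : Type u} [Group A] [Finite A] (N K : Subgroup A)
    [N.Normal] (hodd : ¬ p ∣ N.relIndex K) {M : Ideal AlgInt}
    {a : ℕ} (ψ : IrrCharacter K) (χ : IrrCharacter A) (hχ : χ ∈ principalBlock M A)
    (hres : ∀ t : K, (χ : A → ℂ) t = (ψ : K → ℂ) t) (h0 : 0 < vd p (ψ : K → ℂ))
    (ha : vd p (ψ : K → ℂ) ≤ a) : GoodOn p a M N := by
  refine ⟨χ, hχ, ?_, ?_, ?_⟩
  · by_contra hcon
    push Not at hcon
    have h1 : N.subgroupOf K ≤ Cfsg.Agent.H686.CharKit.chKer ψ := by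
      intro t ht
      rw [Subgroup.mem_subgroupOf] at ht
      have h2 := hcon t ht
      have h3 := hres 1
      rw [Subgroup.coe_one] at h3
      rw [hres t, h3] at h2
      exact h2
    have h2 := Cfsg.Agent.H678.Codeg.charDegree_dvd_index ψ (N.subgroupOf K) h1
    have h4 : p ∣ charDegree (ψ : K → ℂ) := Nat.dvd_of_factorization_pos h0.ne'
    exact hodd (h4.trans h2)
  · rw [vd_eq_of_res hres]
    exact h0
  · rw [vd_eq_of_res hres]
    exact ha

section Out

variable {A : Type u} [Group A] [Finite A] (N : Subgroup A) [hN : N.Normal]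
  {S : Type v} [Group S] (e : N ≃* S)

/-- The action on the socle. -/
noncomputable def act : A →* MulAut S :=
  (MulAut.congr e).toMonoidHom.comp (MulAut.conjNormal (H := N))

omit [Finite A] in
theorem act_apply (x : A) (s : S) :
    act N e x s = e ⟨x * (e.symm s : N) * x⁻¹, hN.conj_mem _ (e.symm s).2 x⟩ := rfl

omit [Finite A] in
theorem act_mem (hC : centralizer (N : Set A) = ⊥) (x : A) :
    act N e x ∈ (MulAut.conj : S →* MulAut S).range ↔ x ∈ N := by
  constructor
  · rintro ⟨s, hs⟩
    have h2 : ((e.symm s : N) : A)⁻¹ * x ∈ centralizer (N : Set A) := by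
      rw [mem_centralizer_iff]
      intro m hm
      have h3 := congrArg (fun f : MulAut S => ((e.symm (f (e ⟨m, hm⟩)) : N) : A)) hs
      simp only [MulAut.conj_apply, act_apply, map_mul, map_inv, MulEquiv.symm_apply_apply,
        coe_mul, coe_inv] at h3
      rw [eq_mul_inv_iff_mul_eq] at h3
      calc m * (((e.symm s : N) : A)⁻¹ * x)
          = ((e.symm s : N) : A)⁻¹ * (((e.symm s : N) : A) * m * ((e.symm s : N) : A)⁻¹ * x) := by group
        _ = ((e.symm s : N) : A)⁻¹ * x * m := by rw [h3]; group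
    rw [hC, mem_bot] at h2
    rw [inv_mul_eq_one] at h2
    rw [← h2]
    exact (e.symm s).2
  · intro hx
    refine ⟨e ⟨x, hx⟩, ?_⟩
    ext s
    rw [act_apply, MulAut.conj_apply]
    conv_lhs => rw [← e.apply_symm_apply s]
    rw [← map_mul, ← map_inv, ← map_mul]
    rfl

/-- The map to the outer automorphism group. -/
noncomputable def toOut : A →* Out S := (QuotientGroup.mk' (Inn S)).comp (act N e)

omit [Finite A] in
theorem ker_toOut (hC : centralizer (N : Set A) = ⊥) : (toOut N e).ker = N := by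
  ext x
  rw [MonoidHom.mem_ker]
  show (QuotientGroup.mk' (Inn S)) (act N e x) = 1 ↔ _
  rw [QuotientGroup.mk'_apply, QuotientGroup.eq_one_iff]
  exact act_mem N e hC x

include e in
/-- The normal subgroup of `p'`-index over the socle with cyclic quotient of `p`-power order. -/
theorem exists_K {p : ℕ} [hp : Fact p.Prime] (hC : centralizer (N : Set A) = ⊥) [Finite S]
    {C : Type w} [CommGroup C] [IsCyclic C] [Finite C] (g : Out S →* C)
    (hg : ¬ p ∣ Nat.card g.ker) :
    ∃ (K : Subgroup A) (_ : K.Normal), N ≤ K ∧ IsCyclic (A ⧸ K) ∧ (∃ j : ℕ, K.index = p ^ j) ∧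
      ¬ p ∣ N.relIndex K := by
  classical
  set m : ℕ := ordCompl[p] (Nat.card C) with hm
  have hmC : p ^ (Nat.card C).factorization p * m = Nat.card C := Nat.ordProj_mul_ordCompl_eq_self _ _
  have hmp : ¬ p ∣ m := Nat.not_dvd_ordCompl hp.out Nat.card_pos.ne'
  set h : A →* C := (powMonoidHom m).comp (g.comp (toOut N e)) with hh
  have happ : ∀ x, h x = g (toOut N e x) ^ m := fun x => rfl
  have hker := ker_toOut N e hC
  have hNK : N ≤ h.ker := by
    intro x hx
    rw [← hker, MonoidHom.mem_ker] at hx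
    rw [MonoidHom.mem_ker, happ, hx, map_one, one_pow]
  refine ⟨h.ker, inferInstance, hNK, ?_, ?_, ?_⟩
  · have := Subgroup.isCyclic h.range
    exact isCyclic_of_surjective (QuotientGroup.quotientKerEquivRange h).symm
      (QuotientGroup.quotientKerEquivRange h).symm.surjective
  · rw [Subgroup.index_ker]
    have h1 : IsPGroup p h.range := by
      rintro ⟨y, x, rfl⟩
      refine ⟨(Nat.card C).factorization p, ?_⟩
      apply Subtype.ext
      show (h x) ^ p ^ _ = 1
      rw [happ, ← pow_mul, mul_comm, hmC]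
      exact pow_card_eq_one'
    exact IsPGroup.iff_card.1 h1
  · intro hdvd
    -- the image of the kernel in `Out S`
    set f := (toOut N e).comp h.ker.subtype with hf
    have h1 : N.relIndex h.ker = Nat.card f.range := by
      rw [← Subgroup.index_ker]
      have h2 : f.ker = N.subgroupOf h.ker := by
        ext x
        rw [MonoidHom.mem_ker, Subgroup.mem_subgroupOf]
        show toOut N e x = 1 ↔ _
        rw [← MonoidHom.mem_ker, hker]
      rw [h2]
      rfl
    rw [h1] at hdvd
    obtain ⟨⟨y, x, hx⟩, hy⟩ := exists_prime_orderOf_dvd_card' p hdvd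
    have hyo : orderOf y = p := by
      rw [← hy]
      exact Subgroup.orderOf_coe (⟨y, x, hx⟩ : f.range)
    have h3 : g y ^ m = 1 := by
      have h4 : h (x : A) = 1 := x.2
      rw [happ] at h4
      have h5 : toOut N e (x : A) = y := hx
      rwa [h5] at h4
    have h4 : g y ^ p = 1 := by rw [← map_pow, ← hyo, pow_orderOf_eq_one, map_one]
    have h5 : g y = 1 := by
      have h6 : orderOf (g y) ∣ m := orderOf_dvd_of_pow_eq_one h3
      have h7 : orderOf (g y) ∣ p := orderOf_dvd_of_pow_eq_one h4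
      rcases (Nat.dvd_prime hp.out).1 h7 with h8 | h8
      · exact orderOf_eq_one_iff.1 h8
      · rw [h8] at h6
        exact absurd h6 hmp
    apply hg
    have h6 : orderOf (⟨y, h5⟩ : g.ker) = p := by
      rw [← hyo]
      exact (Subgroup.orderOf_coe (⟨y, h5⟩ : g.ker)).symm
    rw [← h6]
    exact orderOf_dvd_natCard _

end Out

/-- A normal subgroup of `p'`-index contains every `p`-element. -/
theorem mem_of_pelt {A : Type u} [Group A] [Finite A] {p : ℕ} [hp : Fact p.Prime] (N : Subgroup A)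
    [N.Normal] (h : ¬ p ∣ N.index) {x : A} (hx : ∃ k : ℕ, orderOf x = p ^ k) : x ∈ N := by
  obtain ⟨k, hk⟩ := hx
  have h1 : orderOf (QuotientGroup.mk' N x) ∣ p ^ k := by
    rw [← hk]
    exact orderOf_map_dvd _ x
  have h2 : orderOf (QuotientGroup.mk' N x) ∣ N.index := orderOf_dvd_natCard _
  have h3 : Nat.Coprime (p ^ k) N.index := Nat.Coprime.pow_left _ ((Nat.Prime.coprime_iff_not_dvd hp.out).2 h)
  have h4 := orderOf_eq_one_iff.1 (Nat.eq_one_of_dvd_coprimes h3 h1 h2)
  rwa [QuotientGroup.mk'_apply, QuotientGroup.eq_one_iff] at h4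

/-- Sylow `p`-subgroups of an overgroup of `p'`-index. -/
theorem sylow_over {A : Type u} [Group A] [Finite A] {p : ℕ} [hp : Fact p.Prime] (N K : Subgroup A)
    [N.Normal] (hNK : N ≤ K) (hodd : ¬ p ∣ N.relIndex K) (T : Sylow p K) :
    ∃ T' : Sylow p N, Nonempty ((T' : Subgroup N) ≃* (T : Subgroup K)) := by
  have hT1 : (T : Subgroup K).map K.subtype ≤ N := by
    rintro _ ⟨t, ht, rfl⟩
    have h1 : t ∈ N.subgroupOf K := by
      refine mem_of_pelt (N.subgroupOf K) hodd ?_
      have h2 := T.2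
      rw [IsPGroup.iff_orderOf] at h2
      obtain ⟨k, hk⟩ := h2 ⟨t, ht⟩
      exact ⟨k, by rw [← hk]; exact (Subgroup.orderOf_coe (⟨t, ht⟩ : (T : Subgroup K)))⟩
    exact h1
  have e1 : (((T : Subgroup K).map K.subtype).subgroupOf N) ≃* ((T : Subgroup K).map K.subtype : Subgroup A) :=
    Subgroup.subgroupOfEquivOfLe hT1
  have e2 : (T : Subgroup K) ≃* ((T : Subgroup K).map K.subtype : Subgroup A) :=
    (T : Subgroup K).equivMapOfInjective K.subtype K.subtype_injective
  have hcard : Nat.card (((T : Subgroup K).map K.subtype).subgroupOf N) =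
      p ^ (Nat.card N).factorization p := by
    rw [Nat.card_congr e1.toEquiv, ← Nat.card_congr e2.toEquiv, T.card_eq_multiplicity]
    have h1 : Nat.card N * N.relIndex K = Nat.card K := by
      rw [Subgroup.relIndex, ← Nat.card_congr (Subgroup.subgroupOfEquivOfLe hNK).toEquiv]
      exact Subgroup.card_mul_index _
    rw [← h1, Nat.factorization_mul Nat.card_pos.ne' (by
      intro h0
      rw [h0] at hodd
      exact hodd (dvd_zero _)), Finsupp.add_apply, Nat.factorization_eq_zero_of_not_dvd hodd, add_zero]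
  exact ⟨Sylow.ofCard _ hcard, ⟨e1.trans e2.symm⟩⟩

/-- **The glue**: Lemma D (for a normal subgroup with cyclic quotient of 2-power order whose Sylow
2-subgroups satisfy `Q`) gives the row. -/
theorem row_of {S : Type v} [Group S] [Finite S] {C : Type w} [CommGroup C] [IsCyclic C] [Finite C]
    (g : Out S →* C) (hg : Odd (Nat.card g.ker)) (Q : ∀ (T : Type) [Group T], Prop)
    (hQ : ∀ (T T' : Type) [Group T] [Group T'], Nonempty (T ≃* T') → Q T → Q T')
    (hS : ∀ (N : Type) [Group N] [Finite N], Nonempty (N ≃* S) → ∀ T : Sylow 2 N, Q (T : Subgroup N))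
    (lemD : ∀ (A : Type) [Group A] [Finite A] (K : Subgroup A) [K.Normal], IsCyclic (A ⧸ K) →
      (∃ j : ℕ, K.index = 2 ^ j) → (∀ T : Sylow 2 K, Q (T : Subgroup K)) →
      ∀ M : Ideal AlgInt, IsPModular 2 M → ∃ χ : IrrCharacter A, χ ∈ principalBlock M A ∧
        ∃ ψ : IrrCharacter K, (∀ t : K, (χ : A → ℂ) t = (ψ : K → ℂ) t) ∧
          (charDegree (ψ : K → ℂ)).factorization 2 = 1) : Row 2 S := by
  intro A _ _ N _ e hC M hM P a ha _
  obtain ⟨e⟩ := e
  have : Fact (Nat.Prime 2) := ⟨Nat.prime_two⟩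
  have hg2 : ¬ 2 ∣ Nat.card g.ker := by
    rw [← even_iff_two_dvd, Nat.not_even_iff_odd]
    exact hg
  obtain ⟨K, hK, hNK, hcyc, hidx, hodd⟩ := exists_K N e (p := 2) hC g hg2
  obtain ⟨χ, hχ, ψ, hres, hv⟩ := lemD A K hcyc hidx (fun T => by
    obtain ⟨T', ⟨e'⟩⟩ := sylow_over N K hNK hodd T
    exact hQ _ _ ⟨e'⟩ (hS N ⟨e⟩ T')) M hM
  refine goodOn_of_ext N K hodd ψ χ hχ hres ?_ ?_
  · show 0 < (charDegree (ψ : K → ℂ)).factorization 2
    rw [hv]
    exact one_pos
  · show (charDegree (ψ : K → ℂ)).factorization 2 ≤ a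
    rw [hv]
    exact ha

end Cfsg.Agent.H112.HT
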