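import Cfsg.Prelude.Def_Characters
import Cfsg.Prelude.Def_Blocks
import Cfsg.Agent.Characters.Core
import Cfsg.Agent.CharDeep.LinearChar
import Cfsg.Agent.OddOrderCharacters.IndRes
import Cfsg.Agent.OddOrderCharacters.PF9.MackeyIrr
import Cfsg.Agent.H892.EP.Basic
import Cfsg.Agent.H610.EB.Red
import Cfsg.Agent.H855.LB.Lift
import Mathlib

/-!
# Characters induced from linear characters of `p`-power order and the principal block

* `lin_mem`: a linear character of `p`-power order is in the principal block;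
* `exists_mem_ind`: the induced character has a constituent in the principal block;
* `ind_mem`: if the induced character is irreducible, it is in the principal block;
* `exists_mackey`: the same with Mackey's criterion, with the degree;
* `ind_inv`: invariance of an induced character under an automorphism;
* `over_mem`: over a character of the principal block of a normal subgroup of `p`-power index;
* `lift_mem`: extension of an invariant character of the principal block, cyclic quotient.
-/

set_option autoImplicit false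

open Cfsg Cfsg.Agent.Characters.Core
open scoped ComplexConjugate

namespace Cfsg.Agent.H112.HT

universe u

variable {G : Type u} [Group G] {p : ℕ} {M : Ideal AlgInt}

/-- A linear character as an irreducible character. -/
def linIrr (l : G →* ℂˣ) : IrrCharacter G :=
  ⟨fun g => (l g : ℂ), Cfsg.Agent.CharDeep.LinearChar.isIrrCharacter_of_hom l⟩

theorem linIrr_apply (l : G →* ℂˣ) (g : G) : (linIrr l : G → ℂ) g = (l g : ℂ) := rfl

/-- A linear character of `p`-power order is trivial on the `p`-regular elements. -/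
theorem lin_regular [Fact p.Prime] (l : G →* ℂˣ) (hl : ∃ k : ℕ, l ^ p ^ k = 1) {g : G}
    (hg : ¬ p ∣ orderOf g) : l g = 1 := by
  obtain ⟨k, hk⟩ := hl
  have h1 : orderOf (l g) ∣ orderOf g := orderOf_map_dvd l g
  have h2 : orderOf (l g) ∣ p ^ k := by
    rw [orderOf_dvd_iff_pow_eq_one]
    have := congrArg (fun f : G →* ℂˣ => f g) hk
    simpa using this
  have h3 : Nat.Coprime (orderOf g) (p ^ k) :=
    Nat.Coprime.pow_right _ ((Nat.Prime.coprime_iff_not_dvd Fact.out).2 hg).symm
  exact orderOf_eq_one_iff.1 (Nat.eq_one_of_dvd_coprimes h3 h1 h2)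

variable [Finite G] [Fact p.Prime]

theorem regSum_pos {χ : G → ℂ} (h : ∀ g : G, ¬ p ∣ orderOf g → χ g = 1) :
    ∑ᶠ x ∈ {x : G | ¬ p ∣ orderOf x}, χ x ≠ 0 := by
  classical
  have := Fintype.ofFinite G
  have h1 : ∑ᶠ x ∈ {x : G | ¬ p ∣ orderOf x}, χ x = ∑ᶠ x ∈ {x : G | ¬ p ∣ orderOf x}, (1 : ℂ) :=
    finsum_mem_congr rfl fun x hx => h x hx
  rw [h1, finsum_mem_eq_finite_toFinset_sum _ (Set.toFinite _), Finset.sum_const, nsmul_eq_mul, mul_one]
  have h2 : (1 : G) ∈ (Set.toFinite {x : G | ¬ p ∣ orderOf x}).toFinset := by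
    rw [Set.Finite.mem_toFinset]
    show ¬ p ∣ orderOf (1 : G)
    rw [orderOf_one]
    exact (Fact.out : p.Prime).one_lt.ne' ∘ Nat.dvd_one.1
  have h3 : 0 < (Set.toFinite {x : G | ¬ p ∣ orderOf x}).toFinset.card := Finset.card_pos.2 ⟨_, h2⟩
  exact_mod_cast h3.ne'

/-- A character which is trivial on the `p`-regular elements is in the principal block. -/
theorem mem_of_regular (hM : IsPModular p M) (χ : IrrCharacter G)
    (h : ∀ g : G, ¬ p ∣ orderOf g → (χ : G → ℂ) g = 1) : χ ∈ principalBlock M G :=
  Cfsg.Agent.H892.EP.mem_of_regSum hM χ (regSum_pos h)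

/-- A linear character of `p`-power order is in the principal block. -/
theorem lin_mem (hM : IsPModular p M) (l : G →* ℂˣ) (hl : ∃ k : ℕ, l ^ p ^ k = 1) :
    linIrr l ∈ principalBlock M G :=
  mem_of_regular hM _ fun g hg => by rw [linIrr_apply, lin_regular l hl hg, Units.val_one]

/-- Over a linear character of `p`-power order of a subgroup there is a character of the principal
block. -/
theorem exists_mem_over (hM : IsPModular p M) (H : Subgroup G) [Fintype H] (l : H →* ℂˣ)
    (hl : ∃ k : ℕ, l ^ p ^ k = 1) :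
    ∃ χ ∈ principalBlock M G, classInner (fun h : H => (χ : G → ℂ) h) (fun h : H => (l h : ℂ)) ≠ 0 :=
  Cfsg.Agent.H892.EP.exists_over hM H (linIrr l) (lin_mem hM l hl)

/-- The character induced from a linear character of `p`-power order has a constituent in the
principal block. -/
theorem exists_mem_ind [Fintype G] (hM : IsPModular p M) (H : Subgroup G) [Fintype H] (l : H →* ℂˣ)
    (hl : ∃ k : ℕ, l ^ p ^ k = 1) :
    ∃ χ ∈ principalBlock M G, classInner (indFun H (fun h : H => (l h : ℂ))) (χ : G → ℂ) ≠ 0 := by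
  obtain ⟨χ, hχ, h⟩ := exists_mem_over hM H l hl
  refine ⟨χ, hχ, ?_⟩
  rw [Cfsg.Agent.OddOrderCharacters.IndRes.classInner_indFun_left H _ (isIrr_isClassFunction χ.2)]
  intro h0
  apply h
  have h1 := classInner_conj_symm (fun h : H => (l h : ℂ)) (fun h : H => (χ : G → ℂ) h)
  rw [show Cfsg.Agent.OddOrderCharacters.IndRes.res H (χ : G → ℂ) = fun h : H => (χ : G → ℂ) h from rfl] at h0
  rw [h0, map_zero] at h1
  exact h1.symm

/-- An irreducible character induced from a linear character of `p`-power order is in the principal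
block. -/
theorem ind_mem [Fintype G] (hM : IsPModular p M) (H : Subgroup G) (l : H →* ℂˣ)
    (hl : ∃ k : ℕ, l ^ p ^ k = 1) (hirr : IsIrrCharacter G (indFun H (fun h : H => (l h : ℂ)))) :
    (⟨_, hirr⟩ : IrrCharacter G) ∈ principalBlock M G := by
  classical
  have := Fintype.ofFinite H
  obtain ⟨χ, hχ, h⟩ := exists_mem_ind hM H l hl
  have h1 : (⟨_, hirr⟩ : IrrCharacter G) = χ := by
    by_contra hne
    exact h (classInner_irr_ne hirr χ.2 fun h2 => hne (Subtype.ext h2))
  rw [h1]
  exact hχ

/-- Mackey's criterion, degree and membership in the principal block. -/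
theorem exists_mackey [Fintype G] (hM : IsPModular p M) (H : Subgroup G) (l : H →* ℂˣ)
    (hl : ∃ k : ℕ, l ^ p ^ k = 1)
    (h : ∀ g : G, (∀ a b : H, (b : G) = g * a * g⁻¹ → l a = l b) → g ∈ H) :
    ∃ χ : IrrCharacter G, χ ∈ principalBlock M G ∧ (χ : G → ℂ) = indFun H (fun h : H => (l h : ℂ)) ∧
      charDegree (χ : G → ℂ) = H.index := by
  classical
  have := Fintype.ofFinite H
  have hirr := Cfsg.Agent.OddOrderCharacters.PF9.MackeyIrr.isIrr_ind H l h
  refine ⟨⟨_, hirr⟩, ind_mem hM H l hl hirr, rfl, ?_⟩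
  unfold charDegree
  have h1 : indFun H (fun h : H => (l h : ℂ)) 1 = (H.index : ℂ) := by
    rw [Cfsg.Agent.OddOrderCharacters.IndRes.indFun_apply_one, map_one, Units.val_one, mul_one]
  show ⌊(indFun H (fun h : H => (l h : ℂ)) 1).re⌋₊ = _
  rw [h1, Complex.natCast_re, Nat.floor_natCast]

/-- A character over a member of the principal block of a normal subgroup of `p`-power index is in
the principal block. -/
theorem over_mem (hM : IsPModular p M) (N : Subgroup G) [N.Normal] [Fintype N]
    (hidx : ∃ j : ℕ, N.index = p ^ j) {χ : IrrCharacter G} {ψ : IrrCharacter N}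
    (hψ : ψ ∈ principalBlock M N)
    (hover : classInner (fun n : N => (χ : G → ℂ) n) (ψ : N → ℂ) ≠ 0) :
    χ ∈ principalBlock M G :=
  Cfsg.Agent.H610.EB.mem_of_over hM N hidx hψ hover

/-- An invariant character of the principal block of a normal subgroup with cyclic quotient extends
to a member of the principal block. -/
theorem lift_mem (hM : IsPModular p M) (N : Subgroup G) [N.Normal] (hcyc : IsCyclic (G ⧸ N))
    (ψ : IrrCharacter N) (hψ : ψ ∈ principalBlock M N)
    (hinv : ∀ (g : G) (t : N), (ψ : N → ℂ) (MulAut.conjNormal g t) = (ψ : N → ℂ) t) :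
    ∃ χ : IrrCharacter G, χ ∈ principalBlock M G ∧ (∀ t : N, (χ : G → ℂ) t = (ψ : N → ℂ) t) ∧
      charDegree (χ : G → ℂ) = charDegree (ψ : N → ℂ) := by
  obtain ⟨χ, hχ, h⟩ := Cfsg.Agent.H855.LB.lift' hM N hcyc ψ hψ hinv
  refine ⟨χ, hχ, h, ?_⟩
  unfold charDegree
  have h1 := h 1
  rw [Subgroup.coe_one] at h1
  rw [h1]

omit [Fact p.Prime] [Finite G] in
/-- Invariance of an induced function under an automorphism: `φ` maps `H` onto the conjugate
`c H c⁻¹`, and `l` is compatible. -/
theorem ind_inv [Fintype G] (H : Subgroup G) (f : H → ℂ) (φ : MulAut G) (c : G)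
    (hc : ∀ h : H, ∃ h' : H, φ (h : G) = c * h' * c⁻¹ ∧ f h' = f h)
    (g : G) : indFun H f (φ g) = indFun H f g := by
  classical
  have hval : ∀ x : G, x ∈ H → c⁻¹ * φ x * c ∈ H := by
    intro x hx
    obtain ⟨h', h1, -⟩ := hc ⟨x, hx⟩
    have h2 : φ x = c * h' * c⁻¹ := h1
    have h3 : c⁻¹ * φ x * c = h' := by rw [h2]; group
    rw [h3]
    exact h'.2
  -- the map `x ↦ c⁻¹ φ(x) c` is a bijection of `H`
  set ψ : G ≃ G := (φ.toEquiv).trans ((MulAut.conj c⁻¹).toEquiv) with hψ
  have hψa : ∀ x, ψ x = c⁻¹ * φ x * c := by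
    intro x
    simp [hψ]
  have hiff : ∀ x : G, ψ x ∈ H ↔ x ∈ H := by
    have hf : Set.MapsTo ψ (H : Set G) (H : Set G) := fun x hx => by
      rw [hψa]
      exact hval x hx
    have hfin : (H : Set G).Finite := Set.toFinite _
    have hs : ψ '' (H : Set G) = (H : Set G) :=
      Set.eq_of_subset_of_ncard_le hf.image_subset
        (Set.ncard_image_of_injective _ ψ.injective).ge hfin
    intro x
    refine ⟨fun h => ?_, fun h => hf h⟩
    have h' : ψ x ∈ ψ '' (H : Set G) := by
      rw [hs]
      exact h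
    obtain ⟨y, hy, hyx⟩ := h'
    rw [← ψ.injective hyx]
    exact hy
  have key : ∀ x : G, extendByZero H f (ψ x) = extendByZero H f x := by
    intro x
    by_cases hx : x ∈ H
    · obtain ⟨h', h1, h2⟩ := hc ⟨x, hx⟩
      have h1' : φ x = c * h' * c⁻¹ := h1
      have h3 : ψ x = h' := by rw [hψa, h1']; group
      rw [h3]
      have e1 := S0150.extendByZero_coe H f h'
      have e2 := S0150.extendByZero_coe H f ⟨x, hx⟩
      rw [e1, h2]
      exact e2.symm
    · have hx' : ψ x ∉ H := fun h => hx ((hiff x).1 h)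
      rw [show extendByZero H f (ψ x) = 0 from ?_, show extendByZero H f x = 0 from ?_]
      · unfold extendByZero
        rw [Function.extend_apply']
        · rfl
        · rintro ⟨a, ha⟩
          exact hx (ha ▸ a.2)
      · unfold extendByZero
        rw [Function.extend_apply']
        · rfl
        · rintro ⟨a, ha⟩
          exact hx' (ha ▸ a.2)
  rw [S0150.indFun_apply, S0150.indFun_apply]
  congr 1
  refine (Fintype.sum_equiv ((φ.toEquiv).trans (Equiv.mulRight c)) _ _ fun x => ?_).symm
  rw [← key (x⁻¹ * g * x)]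
  congr 1
  rw [hψa]
  simp only [Equiv.trans_apply, Equiv.coe_mulRight]
  show c⁻¹ * φ (x⁻¹ * g * x) * c = (φ x * c)⁻¹ * φ g * (φ x * c)
  rw [map_mul, map_mul, map_inv]
  group

end Cfsg.Agent.H112.HT
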